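import Cfsg.Agent.H578.HT.Cov

/-!
# Frobenius groups in linear groups, coprime characteristic (S3540)

`ρ : Γ →* Module.End K V`, `F ≤ Γ` finite of order invertible in `K`, `x ∈ Γ` of order dividing `s`, normalising
`F`, with `C_F(x ^ j) = 1` for `0 < j < s`; `e = ∑ f ∈ F, ρ f`, so `ker e = [V, F]`.

* `frob_eig`: every `c` with `c ^ s = 1` is an eigenvalue of `x` on `[V, F]` if `[V, F] ≠ 0`;
* `frob_mult`: `s * dim E_c(x | [V, F]) = dim [V, F]` in `K`.
-/

set_option autoImplicit false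

open scoped Classical

namespace Cfsg.Agent.H578.HT.Frob

variable {K : Type*} [Field K] {V : Type*} [AddCommGroup V] [Module K V] {Γ : Type*} [Group Γ]

/-- the sum over a subgroup -/
noncomputable def e (ρ : Γ →* Module.End K V) (F : Subgroup Γ) [Fintype F] : Module.End K V :=
  ∑ f : F, ρ f

theorem e_mul {ρ : Γ →* Module.End K V} {F : Subgroup Γ} [Fintype F] {g : Γ} (hg : g ∈ F) :
    e ρ F * ρ g = e ρ F := by
  unfold e
  rw [Finset.sum_mul]
  refine Fintype.sum_equiv (Equiv.mulRight (⟨g, hg⟩ : F)) _ _ (fun f => ?_)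
  rw [← map_mul]; rfl

theorem mul_e {ρ : Γ →* Module.End K V} {F : Subgroup Γ} [Fintype F] {g : Γ} (hg : g ∈ F) :
    ρ g * e ρ F = e ρ F := by
  unfold e
  rw [Finset.mul_sum]
  refine Fintype.sum_equiv (Equiv.mulLeft (⟨g, hg⟩ : F)) _ _ (fun f => ?_)
  rw [← map_mul]; rfl

theorem e_mul_e {ρ : Γ →* Module.End K V} {F : Subgroup Γ} [Fintype F] :
    e ρ F * e ρ F = (Nat.card F : K) • e ρ F := by
  conv_lhs => enter [1]; unfold e
  rw [Finset.sum_mul, Finset.sum_congr rfl (fun f _ => mul_e f.2), Finset.sum_const, Finset.card_univ,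
    Nat.card_eq_fintype_card, Nat.cast_smul_eq_nsmul]

theorem e_comm {ρ : Γ →* Module.End K V} {F : Subgroup Γ} [Fintype F] {x : Γ} (hx : ∀ f ∈ F, x * f * x⁻¹ ∈ F) :
    e ρ F * ρ x = ρ x * e ρ F := by
  unfold e
  rw [Finset.sum_mul, Finset.mul_sum]
  -- `f ↦ x f x⁻¹` is a bijection of `F`
  let φ : F → F := fun f => ⟨x * f * x⁻¹, hx f f.2⟩
  have hφ : Function.Bijective φ := by
    rw [Fintype.bijective_iff_injective_and_card]
    refine ⟨fun a b hab => ?_, rfl⟩
    have h1 : x * a * x⁻¹ = x * b * x⁻¹ := congrArg Subtype.val hab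
    exact Subtype.ext (mul_left_cancel (mul_right_cancel h1))
  symm
  refine Fintype.sum_bijective φ hφ _ _ (fun f => ?_)
  rw [← map_mul, ← map_mul]
  congr 1
  change x * f = x * f * x⁻¹ * x
  rw [inv_mul_cancel_right]

/-- the key identity -/
theorem key {ρ : Γ →* Module.End K V} {F : Subgroup Γ} [Fintype F] {y : Γ} (hy : ∀ f ∈ F, y * f * y⁻¹ ∈ F)
    (hfp : ∀ f ∈ F, y * f = f * y → f = 1) : ∑ f : F, ρ ((f : Γ) * y * (f : Γ)⁻¹) = e ρ F * ρ y := by
  unfold e
  rw [Finset.sum_mul]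
  let φ : F → F := fun f => ⟨f * (y * (f : Γ)⁻¹ * y⁻¹), F.mul_mem f.2 (hy _ (F.inv_mem f.2))⟩
  have hφ : Function.Bijective φ := by
    rw [Fintype.bijective_iff_injective_and_card]
    refine ⟨fun a b hab => ?_, rfl⟩
    have h1 : (a : Γ) * (y * (a : Γ)⁻¹ * y⁻¹) = b * (y * (b : Γ)⁻¹ * y⁻¹) := congrArg Subtype.val hab
    have h2 : y * ((b : Γ)⁻¹ * a) = (b : Γ)⁻¹ * a * y := by
      have h3 : (b : Γ)⁻¹ * (a * (y * (a : Γ)⁻¹ * y⁻¹)) * y * a = (b : Γ)⁻¹ * a * y := by group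
      rw [h1] at h3
      rw [← h3]
      group
    have h4 := hfp _ (F.mul_mem (F.inv_mem b.2) a.2) h2
    exact Subtype.ext (inv_mul_eq_one.1 h4).symm
  refine Fintype.sum_bijective φ hφ _ _ (fun f => ?_)
  rw [← map_mul]
  congr 1
  change _ = f * (y * (f : Γ)⁻¹ * y⁻¹) * y
  group

section eig

variable {ρ : Γ →* Module.End K V} {F : Subgroup Γ} [Fintype F] {x : Γ} {s : ℕ}

omit [Fintype F] in
theorem norm_pow (hx : ∀ f ∈ F, x * f * x⁻¹ ∈ F) (j : ℕ) : ∀ f ∈ F, x ^ j * f * (x ^ j)⁻¹ ∈ F := by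
  induction j with
  | zero => intro f hf; simpa using hf
  | succ j ih =>
    intro f hf
    have h1 := hx _ (ih f hf)
    have h2 : x ^ (j + 1) * f * (x ^ (j + 1))⁻¹ = x * (x ^ j * f * (x ^ j)⁻¹) * x⁻¹ := by
      rw [pow_succ']; group
    rw [h2]; exact h1

/-- `∑_j c⁻ʲ g ^ j` -/
noncomputable def sq (ρ : Γ →* Module.End K V) (c : K) (s : ℕ) (g : Γ) : Module.End K V :=
  ∑ j ∈ Finset.range s, c⁻¹ ^ j • ρ (g ^ j)

theorem mul_sq {c : K} (hc : c ^ s = 1) (hs : 0 < s) {g : Γ} (hg : g ^ s = 1) :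
    ρ g * sq ρ c s g = c • sq ρ c s g := by
  have hc0 : c ≠ 0 := by
    rintro rfl
    rw [zero_pow hs.ne'] at hc
    exact zero_ne_one hc
  obtain ⟨s, rfl⟩ : ∃ t, s = t + 1 := ⟨s - 1, by omega⟩
  unfold sq
  rw [Finset.mul_sum, Finset.smul_sum]
  have h1 : ∀ j, ρ g * (c⁻¹ ^ j • ρ (g ^ j)) = c • (c⁻¹ ^ (j + 1) • ρ (g ^ (j + 1))) := by
    intro j
    rw [mul_smul_comm, ← map_mul, ← pow_succ', smul_smul, pow_succ' c⁻¹, mul_inv_cancel_left₀ hc0]
  rw [Finset.sum_congr rfl (fun j _ => h1 j), ← Finset.smul_sum, ← Finset.smul_sum, Finset.sum_range_succ,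
    Finset.sum_range_succ']
  congr 2
  rw [hg, inv_pow, hc, inv_one, pow_zero, pow_zero]

theorem conj_pow' (f g : Γ) (j : ℕ) : (f * g * f⁻¹) ^ j = f * g ^ j * f⁻¹ := by
  rw [conj_pow]

/-- the sum over all conjugates -/
theorem sum_sq (hx : ∀ f ∈ F, x * f * x⁻¹ ∈ F) (hs : 0 < s)
    (hfp : ∀ j, 0 < j → j < s → ∀ f ∈ F, x ^ j * f = f * x ^ j → f = 1) (c : K) :
    ∑ f : F, sq ρ c s ((f : Γ) * x * (f : Γ)⁻¹) =
      (Nat.card F : K) • (1 : Module.End K V) + e ρ F * (sq ρ c s x - 1) := by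
  obtain ⟨s, rfl⟩ : ∃ t, s = t + 1 := ⟨s - 1, by omega⟩
  unfold sq
  rw [Finset.sum_comm, Finset.sum_range_succ', Finset.sum_range_succ' (fun j => c⁻¹ ^ j • ρ (x ^ j))]
  simp only [pow_zero, map_one, one_smul, add_sub_cancel_right, Finset.sum_const, Finset.card_univ]
  rw [add_comm, Nat.card_eq_fintype_card, Nat.cast_smul_eq_nsmul]
  congr 1
  rw [Finset.mul_sum]
  refine Finset.sum_congr rfl (fun j hj => ?_)
  rw [← Finset.smul_sum, mul_smul_comm]
  congr 1
  rw [← key (norm_pow hx (j + 1)) (hfp (j + 1) (by omega) (by have := Finset.mem_range.1 hj; omega))]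
  refine Finset.sum_congr rfl (fun f _ => ?_)
  rw [conj_pow']

theorem e_sq (hx : ∀ f ∈ F, x * f * x⁻¹ ∈ F) (c : K) (s : ℕ) : e ρ F * sq ρ c s x = sq ρ c s x * e ρ F := by
  unfold sq
  rw [Finset.mul_sum, Finset.sum_mul]
  refine Finset.sum_congr rfl (fun j _ => ?_)
  rw [mul_smul_comm, smul_mul_assoc, e_comm (norm_pow hx j)]

theorem e_sq_conj (hx : ∀ f ∈ F, x * f * x⁻¹ ∈ F) (c : K) (s : ℕ) {f : Γ} (hf : f ∈ F) :
    e ρ F * sq ρ c s (f * x * f⁻¹) = sq ρ c s x * e ρ F := by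
  rw [← e_sq hx]
  unfold sq
  rw [Finset.mul_sum, Finset.mul_sum]
  refine Finset.sum_congr rfl (fun j _ => ?_)
  rw [mul_smul_comm, mul_smul_comm, conj_pow', map_mul, map_mul, ← mul_assoc, ← mul_assoc, e_mul hf,
    e_comm (norm_pow hx j), mul_assoc, e_mul (F.inv_mem hf)]

/-- **(FR), eigenvalues.** -/
theorem frob_eig (hF : (Nat.card F : K) ≠ 0) (hx : ∀ f ∈ F, x * f * x⁻¹ ∈ F) (hs : 0 < s) (hxs : x ^ s = 1)
    (hfp : ∀ j, 0 < j → j < s → ∀ f ∈ F, x ^ j * f = f * x ^ j → f = 1) {c : K} (hc : c ^ s = 1)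
    {w : V} (hw : w ≠ 0) (hw0 : e ρ F w = 0) : ∃ u : V, u ≠ 0 ∧ ρ x u = c • u ∧ e ρ F u = 0 := by
  have h1 : (∑ f : F, sq ρ c s ((f : Γ) * x * (f : Γ)⁻¹)) w = (Nat.card F : K) • w := by
    rw [sum_sq hx hs hfp c, LinearMap.add_apply, mul_sub, mul_one, e_sq hx]
    simp [hw0]
  obtain ⟨f, hf⟩ : ∃ f : F, sq ρ c s ((f : Γ) * x * (f : Γ)⁻¹) w ≠ 0 := by
    by_contra hcon
    push Not at hcon
    rw [LinearMap.sum_apply, Finset.sum_eq_zero (fun f _ => hcon f)] at h1
    rcases smul_eq_zero.1 h1.symm with h2 | h2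
    · exact hF h2
    · exact hw h2
  set u' := sq ρ c s ((f : Γ) * x * (f : Γ)⁻¹) w with hu'
  have h2 : ρ ((f : Γ) * x * (f : Γ)⁻¹) u' = c • u' := by
    have h3 := mul_sq (ρ := ρ) hc hs (g := (f : Γ) * x * (f : Γ)⁻¹) (by rw [conj_pow', hxs]; group)
    exact congrArg (fun φ : Module.End K V => φ w) h3
  have h4 : e ρ F u' = 0 := by
    have h5 := congrArg (fun φ : Module.End K V => φ w) (e_sq_conj (ρ := ρ) hx c s f.2)
    have h6 : e ρ F u' = sq ρ c s x (e ρ F w) := h5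
    rw [h6, hw0, map_zero]
  have hinv : ∀ v, ρ (f : Γ) (ρ (f : Γ)⁻¹ v) = v := by
    intro v
    have : (ρ (f : Γ) * ρ (f : Γ)⁻¹) v = v := by rw [← map_mul, mul_inv_cancel, map_one]; rfl
    exact this
  have hinv' : ∀ v, ρ (f : Γ)⁻¹ (ρ (f : Γ) v) = v := by
    intro v
    have : (ρ (f : Γ)⁻¹ * ρ (f : Γ)) v = v := by rw [← map_mul, inv_mul_cancel, map_one]; rfl
    exact this
  refine ⟨ρ (f : Γ)⁻¹ u', ?_, ?_, ?_⟩
  · intro h5
    apply hf
    rw [← hinv u', h5, map_zero]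
  · have h5 : ρ ((f : Γ) * x * (f : Γ)⁻¹) u' = ρ (f : Γ) (ρ x (ρ (f : Γ)⁻¹ u')) := by
      rw [map_mul, map_mul]; rfl
    rw [h5] at h2
    have h6 := congrArg (fun v => ρ (f : Γ)⁻¹ v) h2
    simp only [hinv', map_smul] at h6
    exact h6
  · have h5 := congrArg (fun φ : Module.End K V => φ u') (e_mul (ρ := ρ) (F.inv_mem f.2))
    have h6 : e ρ F (ρ (f : Γ)⁻¹ u') = e ρ F u' := h5
    rw [h6, h4]

end eig

/-! ### Multiplicities -/

section mult

variable {ρ : Γ →* Module.End K V} {F : Subgroup Γ} [Fintype F] {x : Γ} {s : ℕ} [FiniteDimensional K V]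

/-- the trace of an idempotent is its rank -/
theorem trace_idem {P : Module.End K V} (hP : P * P = P) :
    LinearMap.trace K V P = (Module.finrank K (LinearMap.range P) : K) := by
  have h1 : LinearMap.IsProj (LinearMap.range P) P := by
    refine ⟨fun v => LinearMap.mem_range_self P v, ?_⟩
    rintro _ ⟨v, rfl⟩
    exact congrArg (fun φ : Module.End K V => φ v) hP
  exact h1.trace

omit [FiniteDimensional K V] in
theorem trace_conj' (f g : Γ) : LinearMap.trace K V (ρ (f * g * f⁻¹)) = LinearMap.trace K V (ρ g) := by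
  rw [map_mul, LinearMap.trace_mul_comm, ← map_mul]
  congr 2
  group

omit [FiniteDimensional K V] in
theorem trace_e_mul {y : Γ} (hy : ∀ f ∈ F, y * f * y⁻¹ ∈ F)
    (hfp : ∀ f ∈ F, y * f = f * y → f = 1) :
    LinearMap.trace K V (e ρ F * ρ y) = (Nat.card F : K) * LinearMap.trace K V (ρ y) := by
  rw [← key hy hfp, map_sum, Finset.sum_congr rfl (fun (f : F) _ => trace_conj' (ρ := ρ) (f : Γ) y), Finset.sum_const,
    Finset.card_univ, Nat.card_eq_fintype_card, nsmul_eq_mul]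

theorem frob_mult (hF : (Nat.card F : K) ≠ 0) (hx : ∀ f ∈ F, x * f * x⁻¹ ∈ F) (hs : 0 < s) (hs' : (s : K) ≠ 0)
    (hxs : x ^ s = 1) (hfp : ∀ j, 0 < j → j < s → ∀ f ∈ F, x ^ j * f = f * x ^ j → f = 1) {c : K}
    (hc : c ^ s = 1) :
    (s : K) * (Module.finrank K (Module.End.eigenspace (ρ x) c ⊓ LinearMap.ker (e ρ F) : Submodule K V) : K) =
      (Module.finrank K (LinearMap.ker (e ρ F)) : K) := by
  have hc0 : c ≠ 0 := by
    rintro rfl
    rw [zero_pow hs.ne'] at hc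
    exact zero_ne_one hc
  set E : Module.End K V := (Nat.card F : K)⁻¹ • e ρ F with hE
  have heE : e ρ F * E = e ρ F := by
    rw [hE, mul_smul_comm, e_mul_e, smul_smul, inv_mul_cancel₀ hF, one_smul]
  have hEE : E * E = E := by
    conv_lhs => enter [1]; rw [hE]
    rw [smul_mul_assoc, heE]
  have hE1 : (1 - E) * (1 - E) = 1 - E := by
    rw [mul_sub, sub_mul, sub_mul, one_mul, one_mul, mul_one, hEE, sub_self, sub_zero]
  -- the projection onto the eigenspace
  set Q : Module.End K V := (s : K)⁻¹ • sq ρ c s x with hQ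
  have hpow : ∀ j : ℕ, ρ (x ^ j) * sq ρ c s x = c ^ j • sq ρ c s x := by
    intro j
    induction j with
    | zero => simp
    | succ j ih =>
      rw [pow_succ, map_mul, mul_assoc, mul_sq hc hs hxs, mul_smul_comm, ih, smul_smul, ← pow_succ']
  have hQQ : Q * Q = Q := by
    have h1 : sq ρ c s x * sq ρ c s x = (s : K) • sq ρ c s x := by
      conv_lhs => enter [1]; unfold sq
      rw [Finset.sum_mul]
      have h2 : ∀ j ∈ Finset.range s, (c⁻¹ ^ j • ρ (x ^ j)) * sq ρ c s x = sq ρ c s x := by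
        intro j _
        rw [smul_mul_assoc, hpow, smul_smul, ← mul_pow, inv_mul_cancel₀ hc0, one_pow, one_smul]
      rw [Finset.sum_congr rfl h2, Finset.sum_const, Finset.card_range, Nat.cast_smul_eq_nsmul]
    rw [hQ, smul_mul_assoc, mul_smul_comm, h1, smul_smul (s : K)⁻¹ (s : K), inv_mul_cancel₀ hs', one_smul]
  have hQE : Q * E = E * Q := by
    rw [hQ, hE, smul_mul_assoc, mul_smul_comm, smul_mul_assoc, mul_smul_comm, e_sq hx, smul_comm]
  set P : Module.End K V := Q * (1 - E) with hP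
  have hcomm : Q * (1 - E) = (1 - E) * Q := by rw [mul_sub, sub_mul, mul_one, one_mul, hQE]
  have hPP : P * P = P := by
    rw [hP, mul_assoc, ← mul_assoc (1 - E), ← hcomm, mul_assoc Q (1 - E), hE1, ← mul_assoc, hQQ]
  have hrange : LinearMap.range P = Module.End.eigenspace (ρ x) c ⊓ LinearMap.ker (e ρ F) := by
    refine le_antisymm ?_ ?_
    · rintro _ ⟨v, rfl⟩
      refine ⟨?_, ?_⟩
      · rw [SetLike.mem_coe, Module.End.mem_eigenspace_iff]
        have h1 : ρ x * P = c • P := by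
          rw [hP, hQ, smul_mul_assoc, mul_smul_comm, ← mul_assoc, mul_sq hc hs hxs, smul_mul_assoc, smul_comm]
        exact congrArg (fun φ : Module.End K V => φ v) h1
      · rw [SetLike.mem_coe, LinearMap.mem_ker]
        have h1 : e ρ F * P = 0 := by
          rw [hP, hcomm, ← mul_assoc, mul_sub, mul_one, heE, sub_self, zero_mul]
        exact congrArg (fun φ : Module.End K V => φ v) h1
    · rintro v ⟨h1, h2⟩
      rw [SetLike.mem_coe, Module.End.mem_eigenspace_iff] at h1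
      rw [SetLike.mem_coe, LinearMap.mem_ker] at h2
      refine ⟨v, ?_⟩
      have h3 : ∀ j : ℕ, ρ (x ^ j) v = c ^ j • v := by
        intro j
        induction j with
        | zero => simp
        | succ j ih =>
          rw [pow_succ, map_mul, Module.End.mul_apply, h1, map_smul, ih, smul_smul, ← pow_succ']
      have h4 : (1 - E) v = v := by
        rw [LinearMap.sub_apply, hE, LinearMap.smul_apply, h2, smul_zero, sub_zero]; rfl
      rw [hP, Module.End.mul_apply, h4, hQ, LinearMap.smul_apply]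
      unfold sq
      rw [LinearMap.sum_apply]
      have h5 : ∀ j ∈ Finset.range s, (c⁻¹ ^ j • ρ (x ^ j)) v = v := by
        intro j _
        rw [LinearMap.smul_apply, h3, smul_smul, ← mul_pow, inv_mul_cancel₀ hc0, one_pow, one_smul]
      rw [Finset.sum_congr rfl h5, Finset.sum_const, Finset.card_range, ← Nat.cast_smul_eq_nsmul K, smul_smul,
        inv_mul_cancel₀ hs', one_smul]
  have hker : LinearMap.range (1 - E) = LinearMap.ker (e ρ F) := by
    refine le_antisymm ?_ ?_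
    · rintro _ ⟨v, rfl⟩
      rw [LinearMap.mem_ker]
      have h1 : e ρ F * (1 - E) = 0 := by rw [mul_sub, mul_one, heE, sub_self]
      exact congrArg (fun φ : Module.End K V => φ v) h1
    · intro v hv
      rw [LinearMap.mem_ker] at hv
      refine ⟨v, ?_⟩
      rw [LinearMap.sub_apply, hE, LinearMap.smul_apply, hv, smul_zero, sub_zero]; rfl
  have ht1 := trace_idem hPP
  have ht2 := trace_idem hE1
  rw [hrange] at ht1
  rw [hker] at ht2
  rw [← ht1, ← ht2]
  -- the traces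
  have ht3 : ∀ j ∈ Finset.range s, j ≠ 0 →
      LinearMap.trace K V ((c⁻¹ ^ j • ρ (x ^ j)) * (1 - E)) = 0 := by
    intro j hj hj0
    have hjs := Finset.mem_range.1 hj
    rw [smul_mul_assoc, map_smul, mul_sub, mul_one, map_sub, hE, mul_smul_comm, map_smul,
      LinearMap.trace_mul_comm, trace_e_mul (norm_pow hx j) (hfp j (by omega) hjs), smul_eq_mul, smul_eq_mul,
      inv_mul_cancel_left₀ hF, sub_self, mul_zero]
  have ht4 : LinearMap.trace K V P = (s : K)⁻¹ * LinearMap.trace K V (1 - E) := by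
    rw [hP, hQ, smul_mul_assoc, map_smul, smul_eq_mul]
    congr 1
    unfold sq
    rw [Finset.sum_mul, map_sum, Finset.sum_eq_single_of_mem 0 (Finset.mem_range.2 hs) ht3]
    simp
  rw [ht4, mul_inv_cancel_left₀ hs']

end mult

/-- if `s * a = b` in a field of characteristic `p` and the numbers are small, they are equal -/
theorem eq_of_cast {p s a b : ℕ} [CharP K p] (h : (s : K) * (a : K) = (b : K)) (h1 : s * a < b + p)
    (h2 : b < s * a + p) : s * a = b := by
  rw [← Nat.cast_mul] at h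
  have h3 := (CharP.natCast_eq_natCast K p).1 h
  rcases Nat.le_total (s * a) b with h4 | h4
  · have h5 := (Nat.modEq_iff_dvd' h4).1 h3
    rcases Nat.eq_zero_or_pos (b - s * a) with h6 | h6
    · omega
    · have := Nat.le_of_dvd h6 h5; omega
  · have h5 := (Nat.modEq_iff_dvd' h4).1 h3.symm
    rcases Nat.eq_zero_or_pos (s * a - b) with h6 | h6
    · omega
    · have := Nat.le_of_dvd h6 h5; omega

end Cfsg.Agent.H578.HT.Frob

/-! ### In the setting `QS` -/

namespace Cfsg.Agent.H578.HT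

open Cfsg.Agent.H337.HT

universe u w

variable {p : ℕ} [Fact p.Prime] {K : Type w} [Field K] {V : Type u} [AddCommGroup V] [Module (ZMod p) V]
  [Module K V] {G L : Subgroup (V ≃ₗ[ZMod p] V)} {h : ℕ}

/-- `L` as a group of `K`-linear maps -/
def rho (H : QS p K V G L h) : L →* Module.End K V where
  toFun := kl H
  map_one' := LinearMap.ext fun _ => rfl
  map_mul' _ _ := LinearMap.ext fun _ => rfl

@[simp] theorem rho_apply (H : QS p K V G L h) (x : L) (v : V) :
    rho H x v = (x : V ≃ₗ[ZMod p] V) v := rfl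

/-- `K` has characteristic `p` -/
theorem charP_K (H : QS p K V G L h) [Finite V] : CharP K p := by
  obtain ⟨v, hv⟩ := exists_ne_zero H
  have h1 : (p : K) = 0 := by
    have h2 : (p : K) • v = 0 := by
      rw [Nat.cast_smul_eq_nsmul, ← Nat.cast_smul_eq_nsmul (ZMod p), CharP.cast_eq_zero, zero_smul]
    rcases smul_eq_zero.1 h2 with h3 | h3
    · exact h3
    · exact absurd h3 hv
  exact (CharP.charP_iff_prime_eq_zero (Fact.out : p.Prime)).2 h1

/-- the order of a subgroup of `L` is non-zero in `K` -/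
theorem card_ne_zero (H : QS p K V G L h) [Finite V] (F : Subgroup L) : (Nat.card F : K) ≠ 0 := by
  have := charP_K H
  rw [Ne, CharP.cast_eq_zero_iff K p]
  intro hd
  apply H.cop
  refine (hd.trans (Subgroup.card_subgroup_dvd_card F)).trans ?_
  rw [Nat.card_congr (Subgroup.subgroupOfEquivOfLe H.le).toEquiv.symm]
  exact Subgroup.card_subgroup_dvd_card _

/-- `[V, F] ≠ 0` if `F ≠ 1` -/
theorem exists_comm_ne (H : QS p K V G L h) [Finite V] (F : Subgroup L) [Fintype F] (hF : F ≠ ⊥) :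
    ∃ w : V, w ≠ 0 ∧ Frob.e (rho H) F w = 0 := by
  by_contra hcon
  push Not at hcon
  apply hF
  rw [eq_bot_iff]
  intro f hf
  rw [Subgroup.mem_bot]
  refine Subtype.ext (LinearEquiv.ext fun v => ?_)
  by_contra hne
  refine hcon ((f : V ≃ₗ[ZMod p] V) v - v) (sub_ne_zero.2 hne) ?_
  have h1 := congrArg (fun φ : Module.End K V => φ v) (Frob.e_mul (ρ := rho H) hf)
  have h2 : Frob.e (rho H) F ((f : V ≃ₗ[ZMod p] V) v) = Frob.e (rho H) F v := h1
  rw [map_sub, h2, sub_self]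

/-- **(FR), eigenvalues.** -/
theorem frob_eig (H : QS p K V G L h) [Finite V] {F : Subgroup L} (hF : F ≠ ⊥) {x : L} {s : ℕ} (hs : 0 < s)
    (hxs : x ^ s = 1) (hx : ∀ f ∈ F, x * f * x⁻¹ ∈ F)
    (hfp : ∀ j, 0 < j → j < s → ∀ f ∈ F, x ^ j * f = f * x ^ j → f = 1) {c : K} (hc : c ^ s = 1) :
    ∃ u : V, u ≠ 0 ∧ (x : V ≃ₗ[ZMod p] V) u = c • u := by
  let _ : Fintype F := Fintype.ofFinite F
  obtain ⟨w, hw, hw0⟩ := exists_comm_ne H F hF
  obtain ⟨u, hu, hu1, -⟩ := Frob.frob_eig (ρ := rho H) (card_ne_zero H F) hx hs hxs hfp hc hw hw0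
  exact ⟨u, hu, hu1⟩

/-- **(FR), `s ∣ h`.** -/
theorem frob_dvd (H : QS p K V G L h) [Finite V] {F : Subgroup L} (hF : F ≠ ⊥) {x : L} {s : ℕ} (hs : s.Prime)
    (hx1 : x ≠ 1) (hxs : x ^ s = 1) (hx : ∀ f ∈ F, x * f * x⁻¹ ∈ F)
    (hfp : ∀ j, 0 < j → j < s → ∀ f ∈ F, x ^ j * f = f * x ^ j → f = 1) : s ∣ h := by
  obtain ⟨u, hu, hu1⟩ := frob_eig H hF hs.pos hxs hx hfp (c := 1) (one_pow s)
  rw [one_smul] at hu1
  have : Fact s.Prime := ⟨hs⟩
  refine Cfsg.Agent.H828.HT.dvd_h H.half (g := ⟨x, H.le x.2⟩) ?_ hu hu1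
  refine orderOf_eq_prime (Subtype.ext ?_) ?_
  · exact congrArg (fun t : L => (t : V ≃ₗ[ZMod p] V)) hxs
  · intro h1
    exact hx1 (Subtype.ext (congrArg (fun t : G => (t : V ≃ₗ[ZMod p] V)) h1))

end Cfsg.Agent.H578.HT
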